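import Mathlib

/-!
# The ternary code `[11, 5, 6]` has no words of weight 11 (helper230)
-/

set_option autoImplicit false

namespace Cfsg.Agent.H230.CC

/-- the last coordinate of the `j`-th vector -/
def D (j : ℕ) : ℕ := [0, 0, 0, 0, 1, 0, 1, 2, 2, 2, 1, 0, 0, 0, 0].getD j 0

theorem code : ∀ a b c d e : Fin 3, ∃ i : Fin 11,
    ((a : ℕ) * D i + b * D (1 + i) + c * D (2 + i) + d * D (3 + i) + e * D (4 + i)) % 3 = 0 := by
  decide +kernel

/-- every element is moved by a power of `σ` into the hyperplane `U` -/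
theorem cover {A : Type*} [CommGroup A] (σ : A →* A) (v : ℕ → A) (hσ : ∀ k, σ (v k) = v (k + 1))
    (h3 : ∀ k, v k ^ 3 = 1) (h5 : v 5 = v 0 * v 1 * v 2 * v 2 * v 3) (U : Subgroup A) (hU : ∀ k < 4, v k ∈ U)
    (hgen : Subgroup.closure (v '' {k | k < 5}) = ⊤) (a : A) : ∃ i < 11, (σ^[i]) a ∈ U := by
  -- the recurrence
  have hrec : ∀ j, v (j + 5) = v j * v (j + 1) * v (j + 2) * v (j + 2) * v (j + 3) := by
    intro j
    induction j with
    | zero => exact h5
    | succ j ih =>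
      have h1 := congrArg σ ih
      simp only [map_mul, hσ] at h1
      have e1 : j + 1 + 5 = j + 5 + 1 := by ring
      have e2 : j + 1 + 1 = j + 1 + 1 := rfl
      have e3 : j + 1 + 2 = j + 2 + 1 := by ring
      have e4 : j + 1 + 3 = j + 3 + 1 := by ring
      rw [e1, e3, e4]
      exact h1
  let q : A →* A ⧸ U := QuotientGroup.mk' U
  set w := q (v 4) with hw
  have hw3 : w ^ 3 = 1 := by rw [hw, ← map_pow, h3, map_one]
  have red : ∀ m n : ℕ, m % 3 = n % 3 → w ^ m = w ^ n := by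
    intro m n h
    rw [← Nat.div_add_mod m 3, ← Nat.div_add_mod n 3, pow_add, pow_add, pow_mul, pow_mul, hw3, one_pow, one_pow, h]
  have hq : ∀ j < 15, q (v j) = w ^ D j := by
    have hlow : ∀ j < 4, q (v j) = w ^ 0 := by
      intro j hj
      rw [pow_zero]
      exact (QuotientGroup.eq_one_iff (v j)).2 (hU j hj)
    have hst : ∀ j, q (v (j + 5)) = q (v j) * q (v (j + 1)) * q (v (j + 2)) * q (v (j + 2)) * q (v (j + 3)) := by
      intro j
      rw [hrec, map_mul, map_mul, map_mul, map_mul]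
    have k0 : q (v 0) = w ^ 0 := hlow 0 (by norm_num)
    have k1 : q (v 1) = w ^ 0 := hlow 1 (by norm_num)
    have k2 : q (v 2) = w ^ 0 := hlow 2 (by norm_num)
    have k3 : q (v 3) = w ^ 0 := hlow 3 (by norm_num)
    have k4 : q (v 4) = w ^ 1 := by rw [pow_one]
    have k5 : q (v 5) = w ^ 0 := by
      rw [hst 0, k0, k1, k2, k3, ← pow_add, ← pow_add, ← pow_add, ← pow_add]
    have k6 : q (v 6) = w ^ 1 := by
      rw [hst 1, k1, k2, k3, k4, ← pow_add, ← pow_add, ← pow_add, ← pow_add]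
    have k7 : q (v 7) = w ^ 2 := by
      rw [hst 2, k2, k3, k4, k5, ← pow_add, ← pow_add, ← pow_add, ← pow_add]
    have k8 : q (v 8) = w ^ 2 := by
      rw [hst 3, k3, k4, k5, k6, ← pow_add, ← pow_add, ← pow_add, ← pow_add]
    have k9 : q (v 9) = w ^ 2 := by
      rw [hst 4, k4, k5, k6, k7, ← pow_add, ← pow_add, ← pow_add, ← pow_add]
      exact red _ _ (by norm_num)
    have k10 : q (v 10) = w ^ 1 := by
      rw [hst 5, k5, k6, k7, k8, ← pow_add, ← pow_add, ← pow_add, ← pow_add]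
      exact red _ _ (by norm_num)
    have k11 : q (v 11) = w ^ 0 := by
      rw [hst 6, k6, k7, k8, k9, ← pow_add, ← pow_add, ← pow_add, ← pow_add]
      exact red _ _ (by norm_num)
    have k12 : q (v 12) = w ^ 0 := by
      rw [hst 7, k7, k8, k9, k10, ← pow_add, ← pow_add, ← pow_add, ← pow_add]
      exact red _ _ (by norm_num)
    have k13 : q (v 13) = w ^ 0 := by
      rw [hst 8, k8, k9, k10, k11, ← pow_add, ← pow_add, ← pow_add, ← pow_add]
      exact red _ _ (by norm_num)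
    have k14 : q (v 14) = w ^ 0 := by
      rw [hst 9, k9, k10, k11, k12, ← pow_add, ← pow_add, ← pow_add, ← pow_add]
      exact red _ _ (by norm_num)
    intro j hj
    interval_cases j <;> assumption
  -- coordinates
  have hco : ∀ x ∈ Subgroup.closure (v '' {k | k < 5}), ∃ n : Fin 5 → ℕ, x = ∏ k : Fin 5, v k ^ n k := by
    intro x hx
    induction hx using Subgroup.closure_induction with
    | mem x hx =>
      obtain ⟨k, hk, rfl⟩ := hx
      refine ⟨Pi.single ⟨k, hk⟩ 1, ?_⟩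
      rw [Finset.prod_eq_single (⟨k, hk⟩ : Fin 5)]
      · rw [Pi.single_eq_same, pow_one]
      · intro b _ hb
        rw [Pi.single_eq_of_ne hb, pow_zero]
      · intro h
        exact absurd (Finset.mem_univ _) h
    | one => exact ⟨0, by simp⟩
    | mul x y _ _ hx hy =>
      obtain ⟨n, rfl⟩ := hx
      obtain ⟨m, rfl⟩ := hy
      exact ⟨n + m, by rw [← Finset.prod_mul_distrib]; exact Finset.prod_congr rfl fun k _ => by rw [Pi.add_apply, pow_add]⟩
    | inv x _ hx =>
      obtain ⟨n, rfl⟩ := hx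
      refine ⟨fun k => 2 * n k, ?_⟩
      rw [← Finset.prod_inv_distrib]
      refine Finset.prod_congr rfl fun k _ => ?_
      rw [inv_eq_iff_mul_eq_one, ← pow_add]
      have : n k + 2 * n k = 3 * n k := by ring
      rw [this, pow_mul, h3, one_pow]
  obtain ⟨n, hn⟩ := hco a (by rw [hgen]; trivial)
  have hit : ∀ i, (σ^[i]) a = ∏ k : Fin 5, v (k + i) ^ n k := by
    intro i
    induction i with
    | zero => exact hn
    | succ i ih =>
      rw [Function.iterate_succ', Function.comp_apply, ih, map_prod]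
      refine Finset.prod_congr rfl fun k _ => ?_
      rw [map_pow, hσ]
      rfl
  obtain ⟨i, hi⟩ := code ⟨n 0 % 3, Nat.mod_lt _ (by norm_num)⟩ ⟨n 1 % 3, Nat.mod_lt _ (by norm_num)⟩
    ⟨n 2 % 3, Nat.mod_lt _ (by norm_num)⟩ ⟨n 3 % 3, Nat.mod_lt _ (by norm_num)⟩ ⟨n 4 % 3, Nat.mod_lt _ (by norm_num)⟩
  refine ⟨i, i.2, ?_⟩
  rw [← QuotientGroup.eq_one_iff]
  show q _ = 1
  rw [hit, map_prod, Fin.prod_univ_five]
  simp only [map_pow]
  have hi' := i.2
  rw [hq _ (by show (0 : ℕ) + i < 15; omega), hq _ (by show (1 : ℕ) + i < 15; omega), hq _ (by show (2 : ℕ) + i < 15; omega),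
    hq _ (by show (3 : ℕ) + i < 15; omega), hq _ (by show (4 : ℕ) + i < 15; omega), ← pow_mul, ← pow_mul, ← pow_mul,
    ← pow_mul, ← pow_mul, ← pow_add, ← pow_add, ← pow_add, ← pow_add, ← pow_zero w]
  apply red
  have e0 : ((0 : Fin 5) : ℕ) + (i : ℕ) = i := by simp
  have e1 : ((1 : Fin 5) : ℕ) + (i : ℕ) = 1 + i := rfl
  have e2 : ((2 : Fin 5) : ℕ) + (i : ℕ) = 2 + i := rfl
  have e3 : ((3 : Fin 5) : ℕ) + (i : ℕ) = 3 + i := rfl
  have e4 : ((4 : Fin 5) : ℕ) + (i : ℕ) = 4 + i := rfl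
  rw [e0, e1, e2, e3, e4]
  rw [Nat.zero_mod, ← hi]
  have hm : ∀ x y : ℕ, y * x ≡ x % 3 * y [MOD 3] := fun x y => by
    rw [mul_comm]
    exact ((Nat.mod_modEq x 3).symm).mul_right y
  exact ((((hm _ _).add (hm _ _)).add (hm _ _)).add (hm _ _)).add (hm _ _)

end Cfsg.Agent.H230.CC
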