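import Cfsg.Agent.H230.CC.Tool
import Cfsg.Agent.H230.CC.Cover
import Cfsg.Agent.H49.Form

/-!
# S3828: groups with a Sylow 3-subgroup `3^5 : 3^2`, an element of order 11 acting on `3^5` (helper230)
-/

set_option autoImplicit false

namespace Cfsg.Agent.H230.CC

open Subgroup Cfsg Cfsg.Agent.H162.CCR Cfsg.Agent.Lib.Cores
open Cfsg.Agent.H49.Form

/-- conjugation on a normalised subgroup -/
def cj {G : Type*} [Group G] {E : Subgroup G} {f : G} (hf : ∀ x ∈ E, f * x * f⁻¹ ∈ E) : E →* E where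
  toFun x := ⟨f * x * f⁻¹, hf x x.2⟩
  map_one' := Subtype.ext (by simp)
  map_mul' x y := Subtype.ext (by simp [mul_assoc])

theorem cj_iter {G : Type*} [Group G] {E : Subgroup G} {f : G} (hf : ∀ x ∈ E, f * x * f⁻¹ ∈ E) (i : ℕ) (x : E) :
    (((cj hf)^[i] x : E) : G) = f ^ i * x * (f ^ i)⁻¹ := by
  induction i with
  | zero => simp
  | succ i ih =>
    rw [Function.iterate_succ', Function.comp_apply]
    show f * ((cj hf)^[i] x : E) * f⁻¹ = _
    rw [ih, pow_succ']
    group

theorem crow_three {G : Type*} [Group G] [Finite G] (hO : pCore 3 G = ⊥) {Ω : Type*} [MulAction G Ω] {a f b b' : G}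
    (x : Ω) (ha3 : a ^ 3 = 1) (hk : ∀ k < 5, a * vv f a k = vv f a k * a)
    (h5 : vv f a 5 = vv f a 0 * vv f a 1 * vv f a 2 * vv f a 2 * vv f a 3) (hf11 : f ^ 11 = 1)
    (hb3 : b ^ 3 = 1) (hb3' : b' ^ 3 = 1)
    (hbE : ∀ k < 5, b * vv f a k * b⁻¹ ∈ closure (vv f a '' {i | i < 5}))
    (hbE' : ∀ k < 5, b' * vv f a k * b'⁻¹ ∈ closure (vv f a '' {i | i < 5}))
    (hbb : b * b' = b' * b) (h1 : vv f a 0 * b ≠ b * vv f a 0)
    (h2 : ∀ j < 3, vv f a 0 * (b' * b ^ j) ≠ b' * b ^ j * vv f a 0)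
    (hx : ∀ i, i + 1 < 5 → vv f a i • x = x) (hx' : vv f a (5 - 1) • x ≠ x) (hcard : ¬ 3 ^ 8 ∣ Nat.card G)
    (hnc : ∀ y : G, orderOf y = 3 → y * f ≠ f * y)
    (hst : MulAction.stabilizer G x ≠ ⊤ ∧ pCore 3 (MulAction.stabilizer G x) = ⊥) : CRow 3 G := by
  have h3f : Fact (Nat.Prime 3) := ⟨Nat.prime_three⟩
  have hcm := vv_comm hk
  set E := closure (vv f a '' {i | i < 5}) with hE
  have hvE : ∀ k < 5, vv f a k ∈ E := fun k hk' => subset_closure ⟨k, hk', rfl⟩
  have hv3 : ∀ k, vv f a k ^ 3 = 1 := fun k => by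
    unfold vv
    rw [conj_pow, ha3, mul_one, mul_inv_cancel]
  -- `E` is abelian
  have hEab : ∀ u ∈ E, ∀ v ∈ E, u * v = v * u := by
    have hcom : IsMulCommutative E := by
      apply isMulCommutative_closure
      rintro _ ⟨i, hi, rfl⟩ _ ⟨j, hj, rfl⟩
      exact hcm i hi j hj
    intro u hu v hv
    exact congrArg Subtype.val (hcom.is_comm.comm ⟨u, hu⟩ ⟨v, hv⟩)
  have hEn : ∀ c : G, (∀ k < 5, c * vv f a k * c⁻¹ ∈ E) → ∀ x ∈ E, c * x * c⁻¹ ∈ E := by
    intro c hc x hx
    have h2 : E ≤ E.comap (MulAut.conj c).toMonoidHom := by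
      conv_lhs => rw [hE]
      rw [closure_le]
      rintro _ ⟨i, hi, rfl⟩
      exact hc i hi
    exact h2 hx
  have hv5 : vv f a 5 ∈ E := by
    rw [h5]
    exact mul_mem (mul_mem (mul_mem (mul_mem (hvE 0 (by norm_num)) (hvE 1 (by norm_num))) (hvE 2 (by norm_num)))
      (hvE 2 (by norm_num))) (hvE 3 (by norm_num))
  have hfE : ∀ x ∈ E, f * x * f⁻¹ ∈ E := by
    apply hEn
    intro k hk'
    rw [vv_succ]
    rcases Nat.lt_or_ge (k + 1) 5 with h | h
    · exact hvE _ h
    · have : k + 1 = 5 := by omega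
      rw [this]
      exact hv5
  have hE3 : ∀ x ∈ E, x ^ 3 = 1 := by
    intro x hx
    induction hx using closure_induction with
    | mem x hx =>
      obtain ⟨k, -, rfl⟩ := hx
      exact hv3 k
    | one => exact one_pow 3
    | mul x y hx hy ihx ihy =>
      have hc : Commute x y := hEab x hx y hy
      rw [hc.mul_pow, ihx, ihy, one_mul]
    | inv x _ ihx => rw [inv_pow, ihx, inv_one]
  have hEp : IsPGroup 3 E := fun x => ⟨1, Subtype.ext (by
    rw [pow_one]
    exact hE3 x x.2)⟩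
  -- the orders
  have hEcard : 3 ^ 5 ∣ Nat.card E := pow_dvd_cyc Nat.prime_three ha3 hk x hx hx'
  have hPcard : 3 ^ 7 ∣ Nat.card ↥(E ⊔ zpowers b ⊔ zpowers b') :=
    pow_dvd_two Nat.prime_three hEcard (fun y hy => hEab _ (hvE 0 (by norm_num)) y hy) (hEn b hbE) (hEn b' hbE') hb3 hb3'
      hbb h1 h2
  -- the normaliser
  set N := normalizer ((E : Subgroup G) : Set G) with hN
  have memN : ∀ c : G, (∀ y ∈ E, c * y * c⁻¹ ∈ E) → c ∈ N := by
    intro c hc
    rw [hN, mem_normalizer_iff_map_conj_eq]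
    refine eq_of_le_of_card_ge ?_ (le_of_eq (card_map_of_injective (MulAut.conj c).injective).symm)
    rintro _ ⟨v, hv, rfl⟩
    exact hc v hv
  have hEN : E ≤ N := le_normalizer
  have hfN : f ∈ N := memN f hfE
  have hPN : E ⊔ zpowers b ⊔ zpowers b' ≤ N := by
    rw [sup_le_iff, sup_le_iff, zpowers_le, zpowers_le]
    exact ⟨⟨hEN, memN b (hEn b hbE)⟩, memN b' (hEn b' hbE')⟩
  have hEbot : E ≠ ⊥ := by
    intro h
    rw [h, card_bot] at hEcard
    norm_num at hEcard
  have hNtop : N ≠ ⊤ := normalizer_ne_top hO hEp hEbot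
  have hNind : ¬ 3 ∣ N.index := by
    intro h
    apply hcard
    have h3 := Subgroup.card_mul_index N
    rw [← h3, pow_succ]
    exact Nat.mul_dvd_mul (hPcard.trans (card_dvd_of_le hPN)) h
  -- `O_3(N) = E`
  set Q := (pCore 3 N).map N.subtype with hQ
  have hQp : IsPGroup 3 Q := (pCore_isPGroup 3).map _
  have hEQ : E ≤ Q := by
    have h4 : E.subgroupOf N ≤ pCore 3 N := by
      refine le_pCore ?_ (hEp.comap_of_injective _ N.subtype_injective)
      rw [hN]
      infer_instance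
    intro y hy
    exact ⟨⟨y, hEN hy⟩, h4 (mem_subgroupOf.2 hy), rfl⟩
  have hQf : ∀ y ∈ Q, f * y * f⁻¹ ∈ Q := by
    rintro _ ⟨y, hy, rfl⟩
    exact ⟨⟨f, hfN⟩ * y * ⟨f, hfN⟩⁻¹, (inferInstance : (pCore 3 N).Normal).conj_mem y hy _, rfl⟩
  have hQf' : ∀ i : ℕ, ∀ y ∈ Q, f ^ i * y * (f ^ i)⁻¹ ∈ Q := by
    intro i
    induction i with
    | zero => intro y hy; simpa using hy
    | succ i ih =>
      intro y hy
      have := hQf _ (ih y hy)
      rw [pow_succ']
      have e : f * f ^ i * y * (f * f ^ i)⁻¹ = f * (f ^ i * y * (f ^ i)⁻¹) * f⁻¹ := by group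
      rw [e]
      exact this
  have hfo : ∃ n, Nat.card (zpowers f) = 11 ^ n := by
    rw [Nat.card_zpowers]
    have h6 : orderOf f ∣ 11 := orderOf_dvd_of_pow_eq_one hf11
    rcases (Nat.dvd_prime (by norm_num)).1 h6 with h | h
    · exact ⟨0, by rw [h, pow_zero]⟩
    · exact ⟨1, by rw [h, pow_one]⟩
  have hff : Finite (zpowers f) := inferInstance
  have hF : IsPGroup 11 (zpowers f) := by
    obtain ⟨n, hn⟩ := hfo
    exact IsPGroup.of_card hn
  have h11 : Fact (Nat.Prime 11) := ⟨by norm_num⟩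
  let act : MulAction (zpowers f) Q :=
    { smul := fun g y => ⟨(g : G) * y * (g : G)⁻¹, by
        obtain ⟨g, hg⟩ := g
        obtain ⟨i, rfl⟩ := (mem_powers_iff_mem_zpowers (x := f)).2 hg
        exact hQf' i y y.2⟩
      one_smul := fun y => Subtype.ext (by
        show (1 : G) * y * (1 : G)⁻¹ = y
        simp)
      mul_smul := fun g h y => Subtype.ext (by
        show ((g * h : zpowers f) : G) * y * ((g * h : zpowers f) : G)⁻¹ = g * (h * y * (h : G)⁻¹) * (g : G)⁻¹
        rw [Subgroup.coe_mul]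
        group) }
  have hmod := hF.card_modEq_card_fixedPoints Q
  have hfix : Nat.card (MulAction.fixedPoints (zpowers f) Q) = 1 := by
    rw [Nat.card_eq_one_iff_unique]
    refine ⟨⟨fun u v => ?_⟩, ⟨⟨1, fun g => Subtype.ext (by
      show (g : G) * ((1 : Q) : G) * (g : G)⁻¹ = ((1 : Q) : G)
      simp)⟩⟩⟩
    have key : ∀ u : MulAction.fixedPoints (zpowers f) Q, (u : Q) = 1 := by
      intro u
      have h6 : (⟨f, mem_zpowers f⟩ : zpowers f) • (u : Q) = u := u.2 ⟨f, mem_zpowers f⟩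
      have h7 : f * ((u : Q) : G) * f⁻¹ = ((u : Q) : G) := congrArg Subtype.val h6
      have h8 : ((u : Q) : G) * f = f * ((u : Q) : G) := by
        rw [mul_inv_eq_iff_eq_mul] at h7
        exact h7.symm
      by_contra hne
      obtain ⟨k, hk'⟩ := IsPGroup.iff_orderOf.1 hQp (u : Q)
      have hk0 : k ≠ 0 := by
        rintro rfl
        rw [pow_zero, orderOf_eq_one_iff] at hk'
        exact hne hk'
      have h9 : orderOf (((u : Q) : G)) = 3 ^ k := by rw [Subgroup.orderOf_coe, hk']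
      have h10 : orderOf (((u : Q) : G) ^ 3 ^ (k - 1)) = 3 := by
        rw [orderOf_pow' _ (pow_ne_zero _ (by norm_num)), h9, Nat.gcd_eq_right (pow_dvd_pow 3 (Nat.sub_le k 1)),
          Nat.pow_div (Nat.sub_le k 1) (by norm_num)]
        have : k - (k - 1) = 1 := by omega
        rw [this, pow_one]
      refine hnc _ h10 ?_
      have hcm' : Commute (((u : Q) : G)) f := h8
      exact (hcm'.pow_left _).eq
    exact Subtype.ext ((key u).trans (key v).symm)
  rw [hfix] at hmod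
  obtain ⟨m, hm⟩ := IsPGroup.iff_card.1 hQp
  have hm5 : 5 ≤ m := by
    have h6 : 3 ^ 5 ∣ 3 ^ m := hm ▸ (hEcard.trans (card_dvd_of_le hEQ))
    exact (Nat.pow_dvd_pow_iff_le_right (by norm_num)).1 h6
  have hm8 : m < 8 := by
    by_contra hcon
    apply hcard
    exact (pow_dvd_pow 3 (by omega : 8 ≤ m)).trans (hm ▸ card_subgroup_dvd_card Q)
  have hm' : m = 5 := by
    rw [hm] at hmod
    interval_cases m
    · rfl
    · exact absurd hmod (by decide)
    · exact absurd hmod (by decide)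
  have hQE : Q = E := by
    symm
    refine eq_of_le_of_card_ge hEQ ?_
    rw [hm, hm']
    exact Nat.le_of_dvd Nat.card_pos hEcard
  -- the end
  intro C hC c hc
  obtain ⟨g, hg⟩ := hC.exists_conj_mem hNind hc
  have hd := hC.conj g c hc
  set d := g * c * g⁻¹ with hdd
  have hdE : d ∈ E := by
    rw [← hQE]
    exact hC.mem_map_pCore hNtop hd hg
  have hcomm : IsMulCommutative E := ⟨⟨fun u v => Subtype.ext (hEab u u.2 v v.2)⟩⟩
  let _ : CommGroup E := { (inferInstance : Group E) with mul_comm := hcomm.is_comm.comm }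
  let U : Subgroup E := (MulAction.stabilizer G x).subgroupOf E
  have hvE' : ∀ k, vv f a k ∈ E := by
    intro k
    induction k with
    | zero => exact hvE 0 (by norm_num)
    | succ k ih => rw [← vv_succ]; exact hfE _ ih
  have hcj : ∃ i < 11, ((cj hfE)^[i] ⟨d, hdE⟩ : E) ∈ U := by
    refine cover (cj hfE) (fun k => ⟨vv f a k, hvE' k⟩) (fun k => Subtype.ext (vv_succ f a k))
      (fun k => Subtype.ext (hv3 k)) (Subtype.ext h5) U (fun k hk' => ?_) ?_ _
    · exact mem_subgroupOf.2 (hx k (by omega))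
    · rw [eq_top_iff]
      rintro ⟨y, hy⟩ -
      have h6 : ∀ y ∈ E, ∀ hy : y ∈ E, (⟨y, hy⟩ : E) ∈
          closure ((fun k => (⟨vv f a k, hvE' k⟩ : E)) '' {k | k < 5}) := by
        intro y hy
        induction hy using closure_induction with
        | mem y hy =>
          obtain ⟨k, hk', rfl⟩ := hy
          intro _
          exact subset_closure ⟨k, hk', rfl⟩
        | one => intro _; exact one_mem _
        | mul u v hu hv ihu ihv =>
          intro _
          exact mul_mem (ihu hu) (ihv hv)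
        | inv u hu ihu =>
          intro _
          exact inv_mem (ihu hu)
      exact h6 y hy hy
  obtain ⟨i, -, hi⟩ := hcj
  have h6 := mem_subgroupOf.1 hi
  rw [cj_iter] at h6
  have h7 : f ^ i * d * (f ^ i)⁻¹ = 1 := hC.eq_one_of_mem hst.1 hst.2 (hC.conj _ _ hd) h6
  have h8 : d = 1 := by
    have := congrArg (fun z => (f ^ i)⁻¹ * z * f ^ i) h7
    simpa [mul_assoc] using this
  rw [hdd] at h8
  have := congrArg (fun z => g⁻¹ * z * g) h8
  simpa [mul_assoc] using this

end Cfsg.Agent.H230.CC
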