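import Cfsg.Agent.H162.CC.Tools3

/-!
# Rows of S3828 from simple subgroups (helper230)
-/

set_option autoImplicit false

namespace Cfsg.Agent.H230.CC

open Subgroup Cfsg Cfsg.Agent.H162.CCR

variable {G L : Type*} [Group G] [Group L] {p : ℕ}

/-- nothing to do if `p` does not divide the order -/
theorem crow_of_not_dvd (hG : ¬ p ∣ Nat.card G) : CRow p G := by
  intro C hC c hc
  obtain ⟨k, hk⟩ := hC.pel c hc
  rcases Nat.eq_zero_or_pos k with h | h
  · rw [h, pow_zero, orderOf_eq_one_iff] at hk
    exact hk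
  · exact absurd ((dvd_pow_self p h.ne').trans (hk ▸ orderOf_dvd_natCard c)) hG

/-- a group whose order is divisible by two primes is not commutative if it is simple -/
theorem not_comm_of_card [IsSimpleGroup L] {m a b : ℕ} (hL : Nat.card L = m) (hm : m ≠ 0) (ha : a.Prime) (hb : b.Prime)
    (hab : a ≠ b) (ham : a ∣ m) (hbm : b ∣ m) : ¬ IsMulCommutative L := by
  intro hc
  have : Finite L := Nat.finite_of_card_ne_zero (by rw [hL]; exact hm)
  let _ : CommGroup L := { (inferInstance : Group L) with mul_comm := hc.is_comm.comm }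
  have hp : (Nat.card L).Prime := IsSimpleGroup.prime_card
  rw [hL] at hp
  have h1 := (Nat.prime_dvd_prime_iff_eq ha hp).1 ham
  have h2 := (Nat.prime_dvd_prime_iff_eq hb hp).1 hbm
  exact hab (h1.trans h2.symm)

/-- simple subgroups of index prime to `p` -/
theorem crow_of_sub [Finite G] [hp : Fact p.Prime] (f : L →* G) (hf : Function.Injective f) (hs : IsSimpleGroup L)
    {m n a b : ℕ} (hL : Nat.card L = m) (hG : Nat.card G = n) (hm : m ≠ 0) (ha : a.Prime) (hb : b.Prime)
    (hab : a ≠ b) (ham : a ∣ m) (hbm : b ∣ m) (h1 : m < n) (h2 : ¬ p * m ∣ n) : CRow p G := by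
  intro C hC
  have hna := not_comm_of_card hL hm ha hb hab ham hbm
  let e : L ≃* f.range := MonoidHom.ofInjective hf
  have hcard : Nat.card f.range = m := by rw [← Nat.card_congr e.toEquiv, hL]
  have hs' : IsSimpleGroup f.range := (MulEquiv.isSimpleGroup_congr e).1 hs
  have hna' : ¬ IsMulCommutative f.range := not_comm_of_card hcard hm ha hb hab ham hbm
  refine hC.eq_one_of_index (H := f.range) ?_ ?_ (pCore_eq_bot_of_simple hna' p)
  · intro h
    rw [h, Subgroup.card_top, hG] at hcard
    omega
  · intro h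
    apply h2
    have h3 := Subgroup.card_mul_index f.range
    rw [hcard, hG] at h3
    rw [← h3, mul_comm]
    exact Nat.mul_dvd_mul_left m h

theorem pCore_bot_of_simple' [Finite G] [hs : IsSimpleGroup G] {n a b : ℕ} (hG : Nat.card G = n) (hn : n ≠ 0)
    (ha : a.Prime) (hb : b.Prime) (hab : a ≠ b) (han : a ∣ n) (hbn : b ∣ n) (q : ℕ) [hq : Fact q.Prime] :
    pCore q G = ⊥ :=
  pCore_eq_bot_of_simple (not_comm_of_card hG hn ha hb hab han hbn) q

end Cfsg.Agent.H230.CC
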